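import Mathlib
import Cfsg.Agent.H87.Spin.Ones

/-!
# S4816, RIM-ALT, part B: a label whose number of shifted tableaux is divisible by `p` (helper698)
-/

set_option autoImplicit false

namespace Cfsg.Agent.H698.RIM

open Finset Cfsg.Agent.H614.Spin

theorem X_mul' (n : ℕ) {L : List ℤ} (hL : Strict L) (hsum : L.sum = n) :
    X (Multiset.replicate n 1) L * ((df L : ℤ) * dp L) = (n.factorial : ℤ) * dm L := by
  have h1 := X_ones n hL hsum
  change _ = n.factorial / fden L * ratio L at h1
  rw [ratio_eq hL, ← cast_df] at h1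
  have hdp' : (dp L : ℚ) ≠ 0 := by exact_mod_cast (dp_pos hL).ne'
  have hdf' : ((df L : ℕ) : ℚ) ≠ 0 := by exact_mod_cast df_ne L
  rw [div_mul_div_comm, eq_div_iff (mul_ne_zero hdf' hdp')] at h1
  exact_mod_cast h1

theorem strict_two {a b : ℤ} (h : b < a) (hb : 0 < b) : Strict [a, b] := by
  refine ⟨by simpa using h, ?_⟩
  intro x hx
  simp only [List.mem_cons, List.not_mem_nil, or_false] at hx
  rcases hx with rfl | rfl
  · omega
  · exact hb

theorem strict_three {a b c : ℤ} (h : b < a) (h' : c < b) (hc : 0 < c) : Strict [a, b, c] := by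
  refine ⟨?_, ?_⟩
  · simp only [List.pairwise_cons, List.mem_cons, List.not_mem_nil, or_false, forall_eq_or_imp, forall_eq,
      IsEmpty.forall_iff, implies_true, List.Pairwise.nil, and_true]
    exact ⟨⟨h, by omega⟩, h'⟩
  · intro x hx
    simp only [List.mem_cons, List.not_mem_nil, or_false] at hx
    rcases hx with rfl | rfl | rfl
    · omega
    · omega
    · exact hc

/-- two rows -/
theorem X_two {n k : ℕ} (hk : 1 ≤ k) (hkn : 2 * k < n) :
    X (Multiset.replicate n 1) [((n - k : ℕ) : ℤ), (k : ℤ)] * n = (n.choose k : ℤ) * ((n : ℤ) - 2 * k) := by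
  have hs : Strict [((n - k : ℕ) : ℤ), (k : ℤ)] := strict_two (by omega) (by omega)
  have h1 := X_mul' n hs (by
    simp only [List.sum_cons, List.sum_nil]
    push_cast [Nat.cast_sub (show k ≤ n by omega)]
    ring)
  simp only [df, dp, dm, List.map_cons, List.map_nil, List.prod_cons, List.prod_nil, Int.toNat_natCast] at h1
  have h2 := Nat.choose_mul_factorial_mul_factorial (show k ≤ n by omega)
  have h3 : ((n - k : ℕ) : ℤ) = (n : ℤ) - k := by push_cast [Nat.cast_sub (show k ≤ n by omega)]; ring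
  have h4 : (n.factorial : ℤ) = n.choose k * k.factorial * (n - k).factorial := by exact_mod_cast h2.symm
  rw [h4] at h1
  have h5 : ((k.factorial : ℤ) * ((n - k).factorial : ℤ)) ≠ 0 := by positivity
  apply mul_right_cancel₀ h5
  rw [h3] at h1
  rw [h3]
  push_cast at h1 ⊢
  linear_combination h1

theorem dvd_two {p n k : ℕ} (hp : p.Prime) (hpn : ¬ p ∣ n) (hk : 1 ≤ k) (hkn : 2 * k < n)
    (h : (p : ℤ) ∣ (n.choose k : ℤ) * ((n : ℤ) - 2 * k)) :
    ∃ L : List ℤ, Strict L ∧ L.sum = n ∧ (p : ℤ) ∣ X (Multiset.replicate n 1) L := by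
  refine ⟨[((n - k : ℕ) : ℤ), (k : ℤ)], strict_two (by omega) (by omega), ?_, ?_⟩
  · simp only [List.sum_cons, List.sum_nil]
    push_cast [Nat.cast_sub (show k ≤ n by omega)]
    ring
  · rw [← X_two hk hkn] at h
    rcases (Nat.prime_iff_prime_int.1 hp).dvd_or_dvd h with h1 | h1
    · exact h1
    · exact absurd (by exact_mod_cast h1) hpn

/-- `(n - 3, 2, 1)` -/
theorem X_three_a {n : ℕ} (hn : 6 ≤ n) :
    X (Multiset.replicate n 1) [((n - 3 : ℕ) : ℤ), 2, 1] * 6 = (n : ℤ) * ((n : ℤ) - 4) * ((n : ℤ) - 5) := by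
  obtain ⟨m, rfl⟩ : ∃ m, n = m + 3 := ⟨n - 3, by omega⟩
  have hs : Strict [((m + 3 - 3 : ℕ) : ℤ), 2, 1] := strict_three (by omega) (by omega) (by omega)
  have h1 := X_mul' (m + 3) hs (by
    simp only [List.sum_cons, List.sum_nil]
    push_cast
    ring_nf)
  have e : m + 3 - 3 = m := by omega
  rw [e] at h1 ⊢
  have e1 : (2 : ℤ).toNat = 2 := rfl
  have e2 : (1 : ℤ).toNat = 1 := rfl
  simp only [df, dp, dm, List.map_cons, List.map_nil, List.prod_cons, List.prod_nil, Int.toNat_natCast, e1, e2,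
    Nat.factorial_succ, Nat.factorial_zero] at h1
  have h5 : ((m.factorial : ℤ) * ((m : ℤ) + 2) * ((m : ℤ) + 1)) ≠ 0 := by positivity
  apply mul_right_cancel₀ h5
  push_cast at h1 ⊢
  linear_combination h1

/-- `(n - 5, 4, 1)` -/
theorem X_three_b {n : ℕ} (hn : 10 ≤ n) :
    X (Multiset.replicate n 1) [((n - 5 : ℕ) : ℤ), 4, 1] * 40 =
      (n : ℤ) * ((n : ℤ) - 2) * ((n : ℤ) - 3) * ((n : ℤ) - 6) * ((n : ℤ) - 9) := by
  obtain ⟨m, rfl⟩ : ∃ m, n = m + 5 := ⟨n - 5, by omega⟩
  have hs : Strict [((m + 5 - 5 : ℕ) : ℤ), 4, 1] := strict_three (by omega) (by omega) (by omega)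
  have h1 := X_mul' (m + 5) hs (by
    simp only [List.sum_cons, List.sum_nil]
    push_cast
    ring_nf)
  have e : m + 5 - 5 = m := by omega
  rw [e] at h1 ⊢
  have e1 : (4 : ℤ).toNat = 4 := rfl
  have e2 : (1 : ℤ).toNat = 1 := rfl
  simp only [df, dp, dm, List.map_cons, List.map_nil, List.prod_cons, List.prod_nil, Int.toNat_natCast, e1, e2,
    Nat.factorial_succ, Nat.factorial_zero] at h1
  have h5 : (3 * (m.factorial : ℤ) * ((m : ℤ) + 4) * ((m : ℤ) + 1)) ≠ 0 := by positivity
  apply mul_right_cancel₀ h5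
  push_cast at h1 ⊢
  linear_combination h1

/-- `(p + 1, p - 4, 1)` for `n = 2 p - 2` -/
theorem dvd_core {p : ℕ} (hp : p.Prime) (h7 : 7 ≤ p) :
    ∃ L : List ℤ, Strict L ∧ L.sum = ((2 * p - 2 : ℕ) : ℤ) ∧ (p : ℤ) ∣ X (Multiset.replicate (2 * p - 2) 1) L := by
  have hs : Strict [((p + 1 : ℕ) : ℤ), ((p - 4 : ℕ) : ℤ), 1] := strict_three (by omega) (by omega) (by omega)
  have hsum : [((p + 1 : ℕ) : ℤ), ((p - 4 : ℕ) : ℤ), 1].sum = ((2 * p - 2 : ℕ) : ℤ) := by
    simp only [List.sum_cons, List.sum_nil]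
    omega
  refine ⟨_, hs, hsum, ?_⟩
  have h1 := X_mul' (2 * p - 2) hs hsum
  have e2 : (1 : ℤ).toNat = 1 := rfl
  simp only [df, dp, dm, List.map_cons, List.map_nil, List.prod_cons, List.prod_nil, Int.toNat_natCast, e2,
    Nat.factorial_one] at h1
  have hP := Nat.prime_iff_prime_int.1 hp
  have e3 : (p + 1).factorial = (p + 1) * (p * (p - 1).factorial) := by
    rw [Nat.factorial_succ, Nat.mul_factorial_pred hp.ne_zero]
  obtain ⟨c, hc⟩ : p ∣ (2 * p - 2).factorial := (hp.dvd_factorial).2 (by omega)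
  have e4 : ((p - 4 : ℕ) : ℤ) = (p : ℤ) - 4 := by omega
  rw [e3, hc, e4] at h1
  set x := X (Multiset.replicate (2 * p - 2) 1) [((p + 1 : ℕ) : ℤ), ((p - 4 : ℕ) : ℤ), 1] with hx
  rw [e4] at hx
  rw [← hx] at h1
  have hp0 : (p : ℤ) ≠ 0 := by exact_mod_cast hp.ne_zero
  have h2 : x * (((p : ℤ) + 1) * ((p - 1).factorial : ℤ) * ((p - 4).factorial : ℤ) *
      ((2 * (p : ℤ) - 3) * ((p : ℤ) + 2) * ((p : ℤ) - 3))) = p * (c * (5 * ((p : ℤ) - 5))) := by
    apply mul_left_cancel₀ hp0
    push_cast at h1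
    linear_combination h1
  have h3 : (p : ℤ) ∣ x * (((p : ℤ) + 1) * ((p - 1).factorial : ℤ) * ((p - 4).factorial : ℤ) *
      ((2 * (p : ℤ) - 3) * ((p : ℤ) + 2) * ((p : ℤ) - 3))) := ⟨_, h2⟩
  have hsm : ∀ c : ℤ, (p : ℤ) ∣ c → c ≠ 0 → (p : ℤ) ≤ |c| := fun c h hc => Int.le_of_dvd (abs_pos.2 hc) ((dvd_abs _ _).2 h)
  have hf : ∀ m : ℕ, m < p → ¬ (p : ℤ) ∣ (m.factorial : ℤ) := by
    intro m hm h
    have h' : p ∣ m.factorial := by exact_mod_cast h
    rw [hp.dvd_factorial] at h'
    omega
  rcases hP.dvd_or_dvd h3 with h4 | h4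
  · exact h4
  exfalso
  rcases hP.dvd_or_dvd h4 with h5 | h5
  · rcases hP.dvd_or_dvd h5 with h6 | h6
    · rcases hP.dvd_or_dvd h6 with h8 | h8
      · have h9 : (p : ℤ) ∣ 1 := by
          have := dvd_sub h8 (dvd_refl (p : ℤ))
          rwa [add_sub_cancel_left] at this
        have := Int.le_of_dvd one_pos h9
        omega
      · exact hf _ (by omega) h8
    · exact hf _ (by omega) h6
  · rcases hP.dvd_or_dvd h5 with h6 | h6
    · rcases hP.dvd_or_dvd h6 with h8 | h8
      · have h9 : (p : ℤ) ∣ 3 := by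
          have := dvd_sub (dvd_mul_left (p : ℤ) 2) h8
          rwa [sub_sub_cancel] at this
        have := Int.le_of_dvd (by norm_num) h9
        omega
      · have h9 : (p : ℤ) ∣ 2 := by
          have := dvd_sub h8 (dvd_refl (p : ℤ))
          rwa [add_sub_cancel_left] at this
        have := Int.le_of_dvd (by norm_num) h9
        omega
    · have h9 : (p : ℤ) ∣ 3 := by
        have := dvd_sub (dvd_refl (p : ℤ)) h6
        rwa [sub_sub_cancel] at this
      have := Int.le_of_dvd (by norm_num) h9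
      omega

/-- **the labels** -/
theorem exists_label_dvd {n p : ℕ} (hp : p.Prime) (hp2 : p ≠ 2) (hn : 8 ≤ n) (hpn : p ≤ n) (h85 : ¬ (n = 8 ∧ p = 5)) :
    ∃ L : List ℤ, Strict L ∧ L.sum = n ∧ (p : ℤ) ∣ X (Multiset.replicate n 1) L := by
  have hF : Fact p.Prime := ⟨hp⟩
  have hp3 : 3 ≤ p := by
    have := hp.two_le
    omega
  have hodd : Odd p := hp.odd_of_ne_two hp2
  have hP := Nat.prime_iff_prime_int.1 hp
  have hdm := Nat.div_add_mod n p
  have hlt := Nat.mod_lt n hp.pos
  have hq : 1 ≤ n / p := (Nat.one_le_div_iff hp.pos).2 hpn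
  have hqp : p * 1 ≤ p * (n / p) := Nat.mul_le_mul_left _ hq
  by_cases h0 : n % p = 0
  · have hdv : p ∣ n := Nat.dvd_of_mod_eq_zero h0
    by_cases h3 : p = 3
    · subst h3
      by_cases h9 : n = 9
      · subst h9
        refine ⟨_, strict_three (a := ((9 - 3 : ℕ) : ℤ)) (b := 2) (c := 1) (by norm_num) (by norm_num) (by norm_num), ?_, ?_⟩
        · simp
        · have h1 := X_three_a (n := 9) (by norm_num)
          have h2 : X (Multiset.replicate 9 1) [((9 - 3 : ℕ) : ℤ), 2, 1] = 30 := by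
            push_cast at h1 ⊢
            omega
          rw [h2]
          norm_num
      · have hn10 : 10 ≤ n := by omega
        refine ⟨_, strict_three (a := ((n - 5 : ℕ) : ℤ)) (b := 4) (c := 1) (by omega) (by norm_num) (by norm_num), ?_, ?_⟩
        · simp only [List.sum_cons, List.sum_nil]
          omega
        · have h1 := X_three_b hn10
          have h2 : ((3 : ℕ) : ℤ) ∣ X (Multiset.replicate n 1) [((n - 5 : ℕ) : ℤ), 4, 1] * 40 := by
            rw [h1]
            have : ((3 : ℕ) : ℤ) ∣ (n : ℤ) := by exact_mod_cast hdv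
            exact (((this.mul_right _).mul_right _).mul_right _).mul_right _
          rcases hP.dvd_or_dvd h2 with h4 | h4
          · exact h4
          · exfalso
            revert h4
            decide
    · have hp5 : 5 ≤ p := by
        by_contra hcon
        have : p = 4 := by omega
        subst this
        revert hp
        decide
      refine ⟨_, strict_three (a := ((n - 3 : ℕ) : ℤ)) (b := 2) (c := 1) (by omega) (by norm_num) (by norm_num), ?_, ?_⟩
      · simp only [List.sum_cons, List.sum_nil]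
        omega
      · have h1 := X_three_a (n := n) (by omega)
        have h2 : (p : ℤ) ∣ X (Multiset.replicate n 1) [((n - 3 : ℕ) : ℤ), 2, 1] * 6 := by
          rw [h1]
          have : (p : ℤ) ∣ (n : ℤ) := by exact_mod_cast hdv
          exact (this.mul_right _).mul_right _
        rcases hP.dvd_or_dvd h2 with h4 | h4
        · exact h4
        · exfalso
          have h5 : p ∣ 2 * 3 := by exact_mod_cast h4
          rcases hp.dvd_or_dvd h5 with h6 | h6
          · have := Nat.le_of_dvd (by norm_num) h6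
            omega
          · have := Nat.le_of_dvd (by norm_num) h6
            omega
  have hpnn : ¬ p ∣ n := fun h => h0 (Nat.mod_eq_zero_of_dvd h)
  by_cases h1 : n % p = p - 1
  · obtain ⟨r, hr⟩ := hodd
    refine dvd_two hp hpnn (k := r) (by omega) (by omega) (Dvd.dvd.mul_left ?_ _)
    have h2 : (n : ℤ) - 2 * r = p * (n / p : ℕ) := by
      have : (n : ℤ) = p * (n / p : ℕ) + (n % p : ℕ) := by exact_mod_cast hdm.symm
      have h3 : ((n % p : ℕ) : ℤ) = 2 * r := by
        rw [h1]
        omega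
      linear_combination this + h3
    rw [h2]
    exact dvd_mul_right _ _
  by_cases h2 : n = 2 * p - 2
  · have h7 : 7 ≤ p := by
      by_contra hcon
      have : p = 3 ∨ p = 4 ∨ p = 5 ∨ p = 6 := by omega
      rcases this with rfl | rfl | rfl | rfl
      · omega
      · revert hp; decide
      · exact h85 ⟨by omega, rfl⟩
      · revert hp; decide
    subst h2
    exact dvd_core hp h7
  · have hk : n % p + 1 < p := by omega
    have h2k : 2 * (n % p + 1) < n := by
      by_cases hq2 : 2 ≤ n / p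
      · have : p * 2 ≤ p * (n / p) := Nat.mul_le_mul_left _ hq2
        omega
      · have : n / p = 1 := by omega
        rw [this] at hdm
        omega
    refine dvd_two hp hpnn (k := n % p + 1) (by omega) h2k (Dvd.dvd.mul_right ?_ _)
    have h3 := Choose.choose_modEq_choose_mod_mul_choose_div_nat (n := n) (k := n % p + 1) (p := p)
    rw [Nat.mod_eq_of_lt hk, Nat.choose_succ_self, zero_mul] at h3
    exact_mod_cast (Nat.modEq_zero_iff_dvd.1 h3)

end Cfsg.Agent.H698.RIM
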